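import Mathlib
import Cfsg.Agent.H952.S7.Defs

/-!
# S5927, S5928, box B7 (helper911): the case of two independent families

* `scott0` : Scott's lemma for two endomorphisms without common fixed vectors and functionals;
* `core` : dual families `w`, `w'` whose spans contain the common fixed vectors of `S`, `a` are impossible;
* `rstep` : the case with two families on each side.
-/

set_option autoImplicit false
set_option linter.unusedSectionVars false

namespace Cfsg.Agent.H911.S7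

open Cfsg Cfsg.Lie Module
open Cfsg.Agent.ChevalleyStructure.E6Min.Tables
open Cfsg.Agent.H952.F4 (ev es sh cr tf)
open Cfsg.Agent.H952.F4.Jord
open Cfsg.Agent.H905.E6T
open Cfsg.Agent.H952.S7

universe u

section Lin

variable {F : Type*} [Field F] {V : Type*} [AddCommGroup V] [Module F V] [FiniteDimensional F V]

theorem rank_ev (A : Module.End F V) : finrank F (LinearMap.range (A - 1)) + ev A 1 = finrank F V := by
  have h := LinearMap.finrank_range_add_finrank_ker (A - 1)
  rw [ev, Module.End.eigenspace_def, one_smul]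
  exact h

theorem mem_ev {A : Module.End F V} {v : V} : v ∈ Module.End.eigenspace A 1 ↔ A v = v := by
  rw [Module.End.mem_eigenspace_iff, one_smul]

/-- Scott's lemma -/
theorem scott0 (A B : Module.End F V) (h1 : ∀ v, A v = v → B v = v → v = 0)
    (h2 : ∀ f : V →ₗ[F] F, (∀ v, f (A v) = f v) → (∀ v, f (B v) = f v) → f = 0) :
    ev A 1 + ev B 1 + ev (A * B) 1 ≤ finrank F V := by
  let φ : ↥(Module.End.eigenspace (A * B) 1) →ₗ[F] V := (B - 1) ∘ₗ (Module.End.eigenspace (A * B) 1).subtype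
  have hr : LinearMap.range φ ≤ LinearMap.range (A - 1) ⊓ LinearMap.range (B - 1) := by
    rintro _ ⟨⟨v, hv⟩, rfl⟩
    have hv' : A (B v) = v := mem_ev.1 hv
    refine ⟨⟨- B v, ?_⟩, ⟨v, rfl⟩⟩
    change A (- B v) - (- B v) = B v - v
    rw [map_neg, hv']
    abel
  have hi : Function.Injective φ := by
    rw [← LinearMap.ker_eq_bot, eq_bot_iff]
    rintro ⟨v, hv⟩ hk
    have hv' : A (B v) = v := mem_ev.1 hv
    have hb : B v = v := sub_eq_zero.1 (LinearMap.mem_ker.1 hk)
    rw [hb] at hv'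
    have := h1 v hv' hb
    exact (Submodule.mem_bot F).2 (Subtype.ext this)
  have h3 : ev (A * B) 1 ≤ finrank F ↥(LinearMap.range (A - 1) ⊓ LinearMap.range (B - 1)) := by
    have h4 := LinearMap.finrank_range_of_inj hi
    have h5 := Submodule.finrank_mono hr
    rw [ev]
    omega
  have htop : LinearMap.range (A - 1) ⊔ LinearMap.range (B - 1) = ⊤ := by
    by_contra hne
    obtain ⟨f, hf0, hf⟩ := Submodule.exists_le_ker_of_lt_top _ (lt_top_iff_ne_top.2 hne)
    apply hf0
    refine h2 f (fun v => ?_) (fun v => ?_)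
    · have : (A - 1) v ∈ LinearMap.ker f := hf (Submodule.mem_sup_left ⟨v, rfl⟩)
      have h4 : f (A v - v) = 0 := this
      rwa [map_sub, sub_eq_zero] at h4
    · have : (B - 1) v ∈ LinearMap.ker f := hf (Submodule.mem_sup_right ⟨v, rfl⟩)
      have h4 : f (B v - v) = 0 := this
      rwa [map_sub, sub_eq_zero] at h4
  have h9 := Submodule.finrank_sup_add_finrank_inf_eq (LinearMap.range (A - 1)) (LinearMap.range (B - 1))
  rw [htop, finrank_top] at h9
  have h10 := rank_ev A
  have h11 := rank_ev B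
  omega

theorem ker_sq (N : Module.End F V) : finrank F (LinearMap.ker (N * N)) ≤ 2 * finrank F (LinearMap.ker N) := by
  let φ : ↥(LinearMap.ker (N * N)) →ₗ[F] V := N ∘ₗ (LinearMap.ker (N * N)).subtype
  have h := LinearMap.finrank_range_add_finrank_ker φ
  have hr : LinearMap.range φ ≤ LinearMap.ker N := by
    rintro _ ⟨⟨v, hv⟩, rfl⟩
    exact hv
  have hk : (LinearMap.ker φ).map (LinearMap.ker (N * N)).subtype ≤ LinearMap.ker N := by
    rintro _ ⟨⟨v, hv⟩, hvk, rfl⟩
    exact hvk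
  have h4 := Submodule.finrank_mono hr
  have h5 := Submodule.finrank_mono hk
  rw [Submodule.finrank_map_subtype_eq] at h5
  omega

theorem ev_ker (A : Module.End F V) : ev A 1 = finrank F (LinearMap.ker (A - 1)) := by
  rw [ev, Module.End.eigenspace_def, one_smul]

theorem sub_sq (h2 : (2 : F) = 0) (A : Module.End F V) : (A - 1) * (A - 1) = A * A - 1 := by
  have h : A + A = 0 := add_self2 h2 A
  have h' : (1 : Module.End F V) + 1 = 0 := add_self2 h2 1
  have e : (A - 1) * (A - 1) = A * A - (A + A) + 1 := by noncomm_ring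
  rw [e, h, sub_zero, sub_eq_add_neg, neg_eq_of_add_eq_zero_left h']

theorem ev_two (h2 : (2 : F) = 0) {A : Module.End F V} (hA : A * A = 1) : finrank F V ≤ 2 * ev A 1 := by
  have h := ker_sq (A - 1)
  rw [sub_sq h2, hA, sub_self, LinearMap.ker_zero, finrank_top, ← ev_ker] at h
  exact h

theorem ev_four (h2 : (2 : F) = 0) {A : Module.End F V} (hA : (A * A) * (A * A) = 1) : finrank F V ≤ 4 * ev A 1 := by
  have h := ker_sq (A - 1)
  have h' := ev_two h2 hA
  rw [sub_sq h2, ← ev_ker, ← ev_ker] at h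
  omega

end Lin

section Core

variable {F : Type u} [Field F] {G : Type*} [Group G] {ω : F} {σ σ' : Representation F G (I27 → F)} {S T a : G}

theorem sp_surj : ∀ q, ∃ p, sp p = q := by decide

theorem tp_surj : ∀ q, ∃ p, tp p = q := by decide

theorem eq_of_tf {x y : I27 → F} (h : ∀ z, tf x z = tf y z) : x = y := by
  have h1 : x - y = 0 := by
    refine tf_nondeg fun z => ?_
    rw [sub_eq_add_neg, tf_add_left, ← neg_one_smul F y, tf_smul_left, h z]
    ring
  exact sub_eq_zero.1 h1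

theorem exists_tf (f : (I27 → F) →ₗ[F] F) : ∃ q, ∀ v, f v = tf q v := by
  have hT : Function.Injective (tfB F) := by
    rw [← LinearMap.ker_eq_bot, eq_bot_iff]
    intro x hx
    exact tf_nondeg fun y => LinearMap.congr_fun hx y
  have hS : Function.Surjective (tfB F) :=
    (LinearMap.injective_iff_surjective_of_finrank_eq_finrank
      (show finrank F (I27 → F) = finrank F (Dual F (I27 → F)) from (Subspace.dual_finrank_eq).symm)).1 hT
  obtain ⟨q, hq⟩ := hS f
  exact ⟨q, fun v => by rw [← hq]; rfl⟩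

theorem ω_ne (hω : ω * ω = ω + 1) : ω ≠ 0 := by
  rintro rfl
  simp at hω

/-- `S`, `T`-stable subspaces are `a`-stable -/
theorem a_mem (hω : ω * ω = ω + 1) (ha : ∀ v, σ (T * S * T⁻¹ * S⁻¹ * T) v = ω • σ a v) {M : Submodule F (I27 → F)}
    (hS : ∀ v ∈ M, σ S v ∈ M) (hT : ∀ v ∈ M, σ T v ∈ M) (hS' : ∀ v ∈ M, σ S⁻¹ v ∈ M) (hT' : ∀ v ∈ M, σ T⁻¹ v ∈ M)
    {v : I27 → F} (hv : v ∈ M) : σ a v ∈ M := by
  have h1 : σ (T * S * T⁻¹ * S⁻¹ * T) v ∈ M := by
    simp only [mul_app]
    exact hT _ (hS _ (hT' _ (hS' _ (hT _ hv))))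
  rw [ha] at h1
  have h2 := M.smul_mem ω⁻¹ h1
  rwa [smul_smul, inv_mul_cancel₀ (ω_ne hω), one_smul] at h2

theorem inv_mem {M : Submodule F (I27 → F)} {g : G} (h : ∀ v ∈ M, σ g v ∈ M) : ∀ v ∈ M, σ g⁻¹ v ∈ M := by
  have hi : Function.Injective ((σ g).restrict h) := by
    rintro ⟨x, hx⟩ ⟨y, hy⟩ hxy
    have h1 : σ g x = σ g y := congrArg Subtype.val hxy
    have h2 := congrArg (σ g⁻¹) h1
    rw [inv_app, inv_app] at h2
    exact Subtype.ext h2
  have hs := LinearMap.injective_iff_surjective.1 hi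
  intro v hv
  obtain ⟨⟨x, hx⟩, hxv⟩ := hs ⟨v, hv⟩
  have h1 : σ g x = v := congrArg Subtype.val hxv
  rw [← h1, inv_app]
  exact hx

theorem fin21 (P : Fin 21 → Prop) (h0 : P 0) (h1 : P 1) (h2 : P 2) (h3 : P 3) (h4 : P 4) (h5 : P 5) (h6 : P 6)
    (h7 : P 7) (h8 : P 8) (h9 : P 9) (h10 : P 10) (h11 : P 11) (h12 : P 12) (h13 : P 13) (h14 : P 14) (h15 : P 15)
    (h16 : P 16) (h17 : P 17) (h18 : P 18) (h19 : P 19) (h20 : P 20) (i : Fin 21) : P i := by
  fin_cases i <;> assumption

/-- vectors fixed by `S` -/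
theorem fix_S (h : PD σ σ') {w' : Fin 21 → I27 → F} (hs : ∀ p, σ' S (w' p) = w' (sp p)) {v : I27 → F} (hv : σ S v = v)
    (q0 : tf (w' 0) v = 0) (q1 : tf (w' 1) v = 0) (q6 : tf (w' 6) v = 0) (q11 : tf (w' 11) v = 0)
    (q16 : tf (w' 16) v = 0) (i : Fin 21) : tf (w' i) v = 0 := by
  have hst : ∀ p r, sp p = r → tf (w' p) v = 0 → tf (w' r) v = 0 := by
    rintro p r rfl hp
    rw [← hs]
    nth_rw 1 [← hv]
    rw [tf_comm, h.htf, tf_comm]
    exact hp
  have q2 := hst 1 2 rfl q1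
  have q3 := hst 2 3 rfl q2
  have q4 := hst 3 4 rfl q3
  have q5 := hst 4 5 rfl q4
  have q7 := hst 6 7 rfl q6
  have q8 := hst 7 8 rfl q7
  have q9 := hst 8 9 rfl q8
  have q10 := hst 9 10 rfl q9
  have q12 := hst 11 12 rfl q11
  have q13 := hst 12 13 rfl q12
  have q14 := hst 13 14 rfl q13
  have q15 := hst 14 15 rfl q14
  have q17 := hst 16 17 rfl q16
  have q18 := hst 17 18 rfl q17
  have q19 := hst 18 19 rfl q18
  have q20 := hst 19 20 rfl q19
  exact fin21 (fun i => tf (w' i) v = 0) q0 q1 q2 q3 q4 q5 q6 q7 q8 q9 q10 q11 q12 q13 q14 q15 q16 q17 q18 q19 q20 i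

/-- the vectors fixed by `S` in the complement -/
theorem ev_R (h : PD σ σ') (h5 : 7 ≤ ev (σ S) 1) {w' : Fin 21 → I27 → F} (hs : ∀ p, σ' S (w' p) = w' (sp p))
    {R : Submodule F (I27 → F)} (memR : ∀ {v}, v ∈ R ↔ ∀ i, tf (w' i) v = 0) (hRS : ∀ v ∈ R, σ S v ∈ R) :
    7 ≤ 5 + ev ((σ S).restrict hRS) 1 := by
  let φ : ↥(Module.End.eigenspace (σ S) 1) →ₗ[F] (Fin 5 → F) :=
    (LinearMap.pi fun i => tfB F (w' ((![0, 1, 6, 11, 16] : Fin 5 → Fin 21) i))) ∘ₗ
      (Module.End.eigenspace (σ S) 1).subtype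
  have h1 := LinearMap.finrank_range_add_finrank_ker φ
  have h2 : finrank F (LinearMap.range φ) ≤ 5 := by
    have := Submodule.finrank_le (LinearMap.range φ)
    rwa [finrank_pi, Fintype.card_fin] at this
  have hk : (LinearMap.ker φ).map (Module.End.eigenspace (σ S) 1).subtype ≤
      (Module.End.eigenspace ((σ S).restrict hRS) 1).map R.subtype := by
    rintro _ ⟨⟨v, hv⟩, hvk, rfl⟩
    have hv' : σ S v = v := mem_ev.1 hv
    have hvk' : ∀ i, tf (w' ((![0, 1, 6, 11, 16] : Fin 5 → Fin 21) i)) v = 0 := fun i =>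
      congrFun (LinearMap.mem_ker.1 hvk) i
    have hvR : v ∈ R := memR.2 fun i => fix_S h hs hv' (hvk' 0) (hvk' 1) (hvk' 2) (hvk' 3) (hvk' 4) i
    refine ⟨⟨v, hvR⟩, ?_, rfl⟩
    exact mem_ev.2 (Subtype.ext hv')
  have h3 := Submodule.finrank_mono hk
  rw [Submodule.finrank_map_subtype_eq, Submodule.finrank_map_subtype_eq] at h3
  rw [ev] at h5 ⊢
  omega

/-- dual families whose spans contain the common fixed vectors of `S` and `a` do not exist -/
theorem core (h : Dat ω σ σ' S T a) {w w' : Fin 21 → I27 → F} (hw : Fam ω σ S T w) (hw' : Fam (ω ^ 2) σ' S T w')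
    (hd : ∀ i j, tf (w' i) (w j) = if i = j then 1 else 0) (hX : X σ S a ≤ Submodule.span F (Set.range w))
    (hX' : X σ' S a ≤ Submodule.span F (Set.range w')) : False := by
  classical
  have hωne := ω_ne h.hω
  -- combinations
  have hcl : ∀ (c : Fin 21 → F) j, tf (∑ q, c q • w' q) (w j) = c j := by
    intro c j
    rw [← tfB_apply, map_sum, LinearMap.sum_apply]
    simp only [map_smul, LinearMap.smul_apply, tfB_apply, hd, smul_eq_mul, mul_ite, mul_one, mul_zero]
    simp
  have hcr : ∀ (c : Fin 21 → F) i, tf (w' i) (∑ q, c q • w q) = c i := by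
    intro c i
    rw [← tfB_apply, map_sum]
    simp only [map_smul, tfB_apply, hd, smul_eq_mul, mul_ite, mul_one, mul_zero]
    simp
  have hexp : ∀ {u : Fin 21 → I27 → F} {v}, v ∈ Submodule.span F (Set.range u) → ∃ c : Fin 21 → F, v = ∑ q, c q • u q := by
    intro u v hv
    obtain ⟨c, hc⟩ := (Submodule.mem_span_range_iff_exists_fun F).1 hv
    exact ⟨c, hc.symm⟩
  have hli' : LinearIndependent F w' := by
    rw [Fintype.linearIndependent_iff]
    intro g hg i
    rw [← hcl g i, hg, tf_zero_left]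
  set M := Submodule.span F (Set.range w) with hM
  set R := perp (Submodule.span F (Set.range w')) with hR
  have hRdim : finrank F R = 6 := by
    have h1 := finrank_perp (Submodule.span F (Set.range w'))
    rw [finrank_span_eq_card hli', Fintype.card_fin] at h1
    rw [hR]
    omega
  have memR : ∀ {v}, v ∈ R ↔ ∀ i, tf (w' i) v = 0 := fun {v} => perp_span
  -- stability
  have hMS : ∀ v ∈ M, σ S v ∈ M := by
    intro v hv
    obtain ⟨c, rfl⟩ := hexp hv
    rw [map_sum]
    refine Submodule.sum_mem _ fun q _ => ?_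
    rw [map_smul, hw.s]
    exact M.smul_mem _ (Submodule.subset_span ⟨_, rfl⟩)
  have hMT : ∀ v ∈ M, σ T v ∈ M := by
    intro v hv
    obtain ⟨c, rfl⟩ := hexp hv
    rw [map_sum]
    refine Submodule.sum_mem _ fun q _ => ?_
    rw [map_smul, hw.t]
    exact M.smul_mem _ (M.smul_mem _ (Submodule.subset_span ⟨_, rfl⟩))
  have hωp : ∀ n : ℕ, (ω ^ 2) ^ n ≠ 0 := fun n => pow_ne_zero _ (pow_ne_zero _ hωne)
  have hRS : ∀ v ∈ R, σ S v ∈ R := by
    intro v hv
    rw [memR] at hv ⊢
    intro q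
    obtain ⟨p, rfl⟩ := sp_surj q
    rw [← hw'.s, tf_comm, h.pd.htf, tf_comm]
    exact hv p
  have hRT : ∀ v ∈ R, σ T v ∈ R := by
    intro v hv
    rw [memR] at hv ⊢
    intro q
    obtain ⟨p, rfl⟩ := tp_surj q
    have h1 : tf (σ' T (w' p)) (σ T v) = 0 := by
      rw [tf_comm, h.pd.htf, tf_comm]
      exact hv p
    rw [hw'.t, tf_smul_left] at h1
    exact (mul_eq_zero.1 h1).resolve_left (hωp _)
  have hMa : ∀ v ∈ M, σ a v ∈ M := fun v hv =>
    a_mem h.hω h.half.ha hMS hMT (inv_mem hMS) (inv_mem hMT) hv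
  have hRa : ∀ v ∈ R, σ a v ∈ R := fun v hv =>
    a_mem h.hω h.half.ha hRS hRT (inv_mem hRS) (inv_mem hRT) hv
  -- the projection to `R`
  let E : (I27 → F) →ₗ[F] (I27 → F) := LinearMap.id - ∑ q, (LinearMap.toSpanSingleton F _ (w q)) ∘ₗ (tfB F (w' q))
  have hEv : ∀ v, E v = v - ∑ q, tf (w' q) v • w q := by
    intro v
    simp only [E, LinearMap.sub_apply, LinearMap.id_apply, LinearMap.sum_apply, LinearMap.comp_apply,
      LinearMap.toSpanSingleton_apply, tfB_apply]
  have hER : ∀ v, E v ∈ R := by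
    intro v
    rw [memR]
    intro i
    rw [hEv, ← tfB_apply, map_sub, tfB_apply, tfB_apply, hcr, sub_self]
  have hEM : ∀ v ∈ M, E v = 0 := by
    intro v hv
    obtain ⟨c, rfl⟩ := hexp hv
    rw [hEv]
    simp only [hcr]
    rw [sub_self]
  have hEid : ∀ v ∈ R, E v = v := by
    intro v hv
    rw [memR] at hv
    rw [hEv]
    simp only [hv, zero_smul, Finset.sum_const_zero, sub_zero]
  have hsub : ∀ v, v - E v ∈ M := by
    intro v
    rw [hEv, sub_sub_cancel]
    exact Submodule.sum_mem _ fun q _ => M.smul_mem _ (Submodule.subset_span ⟨_, rfl⟩)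
  have hEc : ∀ g, (∀ v ∈ M, σ g v ∈ M) → (∀ v ∈ R, σ g v ∈ R) → ∀ v, E (σ g v) = σ g (E v) := by
    intro g hgM hgR v
    have h1 : σ g v = σ g (v - E v) + σ g (E v) := by rw [← map_add, sub_add_cancel]
    rw [h1, map_add, hEM _ (hgM _ (hsub v)), zero_add, hEid _ (hgR _ (hER v))]
  have hE' : ∀ v, E v = E (E v) := fun v => (hEid _ (hER v)).symm
  let A : Module.End F R := (σ a).restrict hRa
  let B : Module.End F R := (σ S).restrict hRS
  have hA : ∀ v : R, ((A v : R) : I27 → F) = σ a v := fun v => rfl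
  have hB : ∀ v : R, ((B v : R) : I27 → F) = σ S v := fun v => rfl
  have hAA : A * A = 1 := by
    ext1 v
    apply Subtype.ext
    change σ a (σ a v) = v
    rw [← mul_app, h.a2, one_app]
  have hABB : ((A * B) * (A * B)) * ((A * B) * (A * B)) = 1 := by
    ext1 v
    apply Subtype.ext
    change σ a (σ S (σ a (σ S (σ a (σ S (σ a (σ S v))))))) = v
    have h1 := h.b4
    have h2 : σ ((a * S) ^ 4) v = v := by rw [h1, one_app]
    simpa only [pow_succ, pow_zero, one_mul, mul_app] using h2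
  have hscott := scott0 A B ?_ ?_
  · rw [hRdim] at hscott
    have e1 := ev_two h.h2 hAA
    have e2 := ev_four h.h2 hABB
    rw [hRdim] at e1 e2
    -- the fixed vectors of `S` on `R`
    have e3 : 7 ≤ 5 + ev B 1 := ev_R h.pd h.half.f5 hw'.s memR hRS
    omega
  · intro v hv hv'
    have h1 : σ a v = v := congrArg Subtype.val hv
    have h2 : σ S v = v := congrArg Subtype.val hv'
    have h3 : (v : I27 → F) ∈ M := hX ⟨mem_ev.2 h2, mem_ev.2 h1⟩
    have h4 := hEM _ h3
    rw [hEid _ v.2] at h4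
    exact Subtype.ext h4
  · intro f hfA hfB
    obtain ⟨q, hq⟩ := exists_tf (f ∘ₗ (E.codRestrict R hER))
    have hq' : ∀ v, tf q v = f ⟨E v, hER v⟩ := fun v => (hq v).symm
    have hqa : σ' a q = q := by
      refine eq_of_tf fun z => ?_
      rw [← app_inv (σ := σ) a z, tf_comm, h.pd.htf, tf_comm, hq', hq', ← hfA]
      congr 1
      apply Subtype.ext
      exact (hEc a hMa hRa _).symm
    have hqS : σ' S q = q := by
      refine eq_of_tf fun z => ?_
      rw [← app_inv (σ := σ) S z, tf_comm, h.pd.htf, tf_comm, hq', hq', ← hfB]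
      congr 1
      apply Subtype.ext
      exact (hEc S hMS hRS _).symm
    obtain ⟨c, hc⟩ := hexp (hX' ⟨mem_ev.2 hqS, mem_ev.2 hqa⟩)
    have hc0 : ∀ j, c j = 0 := by
      intro j
      rw [← hcl c j, ← hc, hq']
      have h1 : (⟨E (w j), hER (w j)⟩ : R) = 0 := Subtype.ext (hEM _ (Submodule.subset_span ⟨_, rfl⟩))
      rw [h1, map_zero]
    have hq0 : q = 0 := by
      rw [hc]
      simp [hc0]
    ext v
    have h1 := hq' v
    rw [hq0, tf_zero_left] at h1
    rw [LinearMap.zero_apply, h1]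
    congr 1
    exact Subtype.ext (hEid _ v.2).symm

/-- box B7 -/
theorem rstep (h : Dat ω σ σ' S T a) {x u y p : Fin 21 → I27 → F} (hx : Fam ω σ S T x) (hu : Fam ω σ S T u)
    (hy : Fam (ω ^ 2) σ' S T y) (hp : Fam (ω ^ 2) σ' S T p) {α β : F} (hα : α ≠ 0) (hβ : β ≠ 0)
    {H H' : Fin 21 → Fin 21 → F}
    (hpu : ∀ i j, tf (p i) (u j) = α * ((if i = j then 1 else 0) + H j i))
    (hyx : ∀ i j, tf (y i) (x j) = β * H j i) (hpx : ∀ i j, tf (p i) (x j) = 0) (hyu : ∀ i j, tf (y i) (u j) = 0)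
    (Hx : ∀ j, ∑ q, H j q • x q = x j) (Hu : ∀ j, ∑ q, H j q • u q = 0)
    (Hy : ∀ j, ∑ q, H' j q • y q = y j) (Hp : ∀ j, ∑ q, H' j q • p q = 0)
    (hX : X σ S a = Submodule.span F {x 0, u 0}) (hX' : X σ' S a = Submodule.span F {y 0, p 0}) : False := by
  have hw : Fam ω σ S T (fun i => u i + x i) :=
    ⟨fun i => by rw [map_add, hx.s, hu.s], fun i => by rw [map_add, hx.t, hu.t, smul_add]⟩
  have hw' : Fam (ω ^ 2) σ' S T (fun i => α⁻¹ • p i + β⁻¹ • y i) := by
    refine ⟨fun i => by rw [map_add, map_smul, map_smul, hy.s, hp.s], fun i => ?_⟩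
    rw [map_add, map_smul, map_smul, hy.t, hp.t, smul_add, smul_comm α⁻¹, smul_comm β⁻¹]
  have hxm : ∀ j, x j ∈ Submodule.span F (Set.range fun i => u i + x i) := by
    intro j
    have h1 : ∑ q, H j q • (u q + x q) = x j := by
      simp only [smul_add, Finset.sum_add_distrib, Hx, Hu, zero_add]
    rw [← h1]
    exact Submodule.sum_mem _ fun q _ => Submodule.smul_mem _ _ (Submodule.subset_span ⟨q, rfl⟩)
  have hum : ∀ j, u j ∈ Submodule.span F (Set.range fun i => u i + x i) := by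
    intro j
    have h1 : (u j + x j) - x j = u j := add_sub_cancel_right _ _
    rw [← h1]
    exact Submodule.sub_mem _ (Submodule.subset_span ⟨j, rfl⟩) (hxm j)
  have hym : ∀ j, y j ∈ Submodule.span F (Set.range fun i => α⁻¹ • p i + β⁻¹ • y i) := by
    intro j
    have h1 : ∑ q, H' j q • (α⁻¹ • p q + β⁻¹ • y q) = β⁻¹ • y j := by
      simp only [smul_add, Finset.sum_add_distrib, smul_comm _ α⁻¹, smul_comm _ β⁻¹, ← Finset.smul_sum, Hy, Hp,
        smul_zero, zero_add]
    have h2 : β • ∑ q, H' j q • (α⁻¹ • p q + β⁻¹ • y q) = y j := by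
      rw [h1, smul_smul, mul_inv_cancel₀ hβ, one_smul]
    rw [← h2]
    exact Submodule.smul_mem _ _
      (Submodule.sum_mem _ fun q _ => Submodule.smul_mem _ _ (Submodule.subset_span ⟨q, rfl⟩))
  have hpm : ∀ j, p j ∈ Submodule.span F (Set.range fun i => α⁻¹ • p i + β⁻¹ • y i) := by
    intro j
    have h1 : α • ((α⁻¹ • p j + β⁻¹ • y j) - β⁻¹ • y j) = p j := by
      rw [add_sub_cancel_right, smul_smul, mul_inv_cancel₀ hα, one_smul]
    rw [← h1]
    exact Submodule.smul_mem _ _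
      (Submodule.sub_mem _ (Submodule.subset_span ⟨j, rfl⟩) (Submodule.smul_mem _ _ (hym j)))
  refine core h hw hw' (fun i j => ?_) ?_ ?_
  · rw [tf_add_left, tf_add_right, tf_add_right, tf_smul_left, tf_smul_left, tf_smul_left, tf_smul_left, hpu, hyx, hpx,
      hyu, mul_zero, mul_zero, add_zero, zero_add, ← mul_assoc, ← mul_assoc, inv_mul_cancel₀ hα, inv_mul_cancel₀ hβ,
      one_mul, one_mul, add_assoc, add_self2 h.h2 (H j i), add_zero]
  · rw [hX, Submodule.span_le]
    rintro v (rfl | rfl)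
    · exact hxm 0
    · exact hum 0
  · rw [hX', Submodule.span_le]
    rintro v (rfl | rfl)
    · exact hym 0
    · exact hpm 0

end Core

end Cfsg.Agent.H911.S7
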